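import Cfsg.Agent.H374.FR.Comm
import Cfsg.Agent.H980.RB.Step3F

/-!
# The Heisenberg structure of helper980 for `F₄(q)`, `q` odd (S2452)
-/

set_option autoImplicit false

namespace Cfsg.Agent.H374.FR.Comm

open Cfsg.Lie Cfsg.Agent.ChevalleyStructure
open Cfsg.Agent.H520.FC (PK VK XT)
open Cfsg.Agent.H980.RB (Hei xt hei_of step3F step3F_nine)

universe u

variable {K : Type u} [Field K] [Finite K]

/-- **The radical of the parabolic subgroup of type `C₃`.** -/
theorem hei (h2 : (2 : K) ≠ 0) : Hei (xt K) (VK K {k | k ≠ 3}) := hei_of com' (nd' h2)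

end Cfsg.Agent.H374.FR.Comm
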