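import Cfsg.Agent.H374.FR.Hei
import Cfsg.Agent.H210.FR.DOne

/-!
# The parabolic subgroup of type `C₃` of `F₄(q)`, `q ≥ 9` odd (S2452, plan F)

* `p1` : `‖χ x‖ ≤ r χ(1)` for `1 ≠ x ∈ V` (Q1) and `|{x ∈ V : [x, g] ∈ X_θ}| ≤ q ^ 12` for `g ∈ C(X_θ) ∖ V` (X):
  `‖χ g‖ ≤ (r + 1 / 27) χ(1)` for all `1 ≠ g ∈ P`.
-/

set_option autoImplicit false
set_option linter.unusedSectionVars false

namespace Cfsg.Agent.H374.FR.Comm

open Cfsg.Lie Cfsg.Agent.ChevalleyStructure Module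
open Cfsg.Agent.KFacts.RgdChevCoord (xc)
open Cfsg.Agent.Nodes.RGDChev
open Cfsg.Agent.H701.F43.Cent (hF)
open Cfsg.Agent.H520.FC (PK VK XT)
open Cfsg.Agent.H980.RB (Hei xt xt_range xt_apply xt_mem hei_of step3F step3F_nine)

universe u

variable {K : Type u} [Field K] [Finite K]

theorem xt_eq (t : K) : xt K (.ofAdd t) = xh K (.ofAdd t) := rfl

theorem xt_inj : Function.Injective (xt K) := fun a b h => inj (show xh K a = xh K b from h)

theorem not_le_range : ¬ VK K {k | k ≠ 3} ≤ (xt K).range := by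
  intro h
  rw [xt_range] at h
  have h1 := Nat.card_le_card_of_injective (Subgroup.inclusion h) (Subgroup.inclusion_injective h)
  rw [card_V, Cfsg.Agent.H797.FQ.card_XX lt47] at h1
  have h2 : 1 < Nat.card K := Finite.one_lt_card
  have h3 : Nat.card K ^ 1 < Nat.card K ^ 15 := Nat.pow_lt_pow_right h2 (by norm_num)
  rw [pow_one] at h3
  omega

variable {W : Type*} [AddCommGroup W] [Module ℂ W] [FiniteDimensional ℂ W]

/-- **All elements of the parabolic subgroup.** -/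
theorem p1 (h2 : (2 : K) ≠ 0) (h9 : 9 ≤ Nat.card K) (ρ : Representation ℂ ↥(chevF4.group K) W) {r : ℝ} (hr : 0 ≤ r)
    (hQ : ∀ x ∈ VK K {k | k ≠ 3}, x ≠ 1 → ‖ρ.character x‖ ≤ r * finrank ℂ W)
    {g : ↥(chevF4.group K)} (hg1 : g ≠ 1) (hg : g ∈ PK K {k | k ≠ 3})
    (hX : (∀ z ∈ XT K, g * z = z * g) → g ∉ VK K {k | k ≠ 3} → Nat.card {x : ↥(VK K {k | k ≠ 3}) //
      (x : ↥(chevF4.group K)) * g * (x : ↥(chevF4.group K))⁻¹ * g⁻¹ ∈ XT K} ≤ Nat.card K ^ 12) :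
    ‖ρ.character g‖ ≤ (r + 1 / 27) * finrank ℂ W := by
  obtain ⟨c, hc0, hc⟩ := hei_act hg
  have hd : (0 : ℝ) ≤ finrank ℂ W := Nat.cast_nonneg _
  by_cases hc1 : c = 1
  · have h3 : ∀ z ∈ XT K, g * z = z * g := by
      intro z hz
      rw [← range_xh] at hz
      obtain ⟨t, rfl⟩ := hz
      have h4 := hc t.toAdd
      rw [hc1, one_mul, mul_inv_eq_iff_eq_mul] at h4
      exact h4
    have h5 : xh K (.ofAdd 1) ≠ 1 := by
      intro h6
      have h7 : Multiplicative.ofAdd (1 : K) = 1 := inj (h6.trans (map_one _).symm)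
      exact one_ne_zero (Multiplicative.ofAdd.injective (h7.trans ofAdd_zero.symm))
    have h6 : xh K (.ofAdd 1) ∈ XT K := by
      rw [← range_xh]
      exact ⟨_, rfl⟩
    exact step3F_nine (hei h2) card_V h9 ρ hr hQ hg1 h6 h5 (h3 _ h6) (hX h3)
  · have h3 := Cfsg.Agent.H210.FR.DOne.ratio_move hc1 hc xt_inj (hei h2) (hei_norm hg) not_le_range ρ hr hQ
    refine h3.trans (mul_le_mul_of_nonneg_right ?_ hd)
    have h4 : (9 : ℝ) ≤ Nat.card K := by exact_mod_cast h9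
    have h5 : ((Nat.card K : ℝ) ^ 2)⁻¹ ≤ (9 ^ 2)⁻¹ := by
      apply inv_anti₀ (by norm_num)
      exact pow_le_pow_left₀ (by norm_num) h4 2
    linarith [show ((9 : ℝ) ^ 2)⁻¹ ≤ 1 / 27 by norm_num]

end Cfsg.Agent.H374.FR.Comm
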